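import Mathlib
import Cfsg.Agent.Lib.Helper41.CS3.GoodDefs
import Cfsg.Agent.Lib.Helper24.CS3.Basics
import Cfsg.Agent.Lib.Helper67.SylowLemmas
import Cfsg.Agent.S4035

/-!
# CS3 (S4284), part GOOD, package [G1]: `C(a) = Sa × N`
-/

set_option autoImplicit false

namespace Cfsg.Agent.Lib.Helper38.CS3

open Cfsg.Agent.Lib.Helper41.CS3 Cfsg.Agent.Lib.Helper81.CS3

universe u

section gen

variable {G : Type u} [Group G]

/-- the set of products of two elementwise commuting subgroups is a subgroup. -/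
def prodSub (A B : Subgroup G) (hc : Comm A B) : Subgroup G where
  carrier := {g | ∃ u ∈ A, ∃ v ∈ B, g = u * v}
  mul_mem' := by
    rintro _ _ ⟨u, hu, v, hv, rfl⟩ ⟨u', hu', v', hv', rfl⟩
    refine ⟨u * u', A.mul_mem hu hu', v * v', B.mul_mem hv hv', ?_⟩
    have h := hc u' hu' v hv
    calc u * v * (u' * v') = u * (v * u') * v' := by group
      _ = u * (u' * v) * v' := by rw [h]
      _ = u * u' * (v * v') := by group
  one_mem' := ⟨1, A.one_mem, 1, B.one_mem, by simp⟩
  inv_mem' := by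
    rintro _ ⟨u, hu, v, hv, rfl⟩
    refine ⟨u⁻¹, A.inv_mem hu, v⁻¹, B.inv_mem hv, ?_⟩
    rw [mul_inv_rev]
    exact (hc u⁻¹ (A.inv_mem hu) v⁻¹ (B.inv_mem hv)).symm

theorem mem_sup_of_comm {A B : Subgroup G} (hc : Comm A B) {g : G} (hg : g ∈ A ⊔ B) :
    ∃ u ∈ A, ∃ v ∈ B, g = u * v := by
  have hle : A ⊔ B ≤ prodSub A B hc := by
    apply sup_le
    · intro u hu
      exact ⟨u, hu, 1, B.one_mem, by simp⟩
    · intro v hv
      exact ⟨1, A.one_mem, v, hv, by simp⟩
  exact hle hg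

theorem card_sup_of_comm {A B : Subgroup G} (hc : Comm A B) (hd : A ⊓ B = ⊥) :
    Nat.card (A ⊔ B : Subgroup G) = Nat.card A * Nat.card B := by
  rw [← Nat.card_prod]
  symm
  apply Nat.card_congr
  refine Equiv.ofBijective (fun p : A × B => (⟨(p.1 : G) * (p.2 : G),
    Subgroup.mul_mem _ ((le_sup_left : A ≤ A ⊔ B) p.1.2) ((le_sup_right : B ≤ A ⊔ B) p.2.2)⟩ :
      (A ⊔ B : Subgroup G))) ⟨?_, ?_⟩
  · rintro ⟨⟨u, hu⟩, ⟨v, hv⟩⟩ ⟨⟨u', hu'⟩, ⟨v', hv'⟩⟩ h
    have h1 : u * v = u' * v' := congrArg Subtype.val h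
    have h2 : u'⁻¹ * u = v' * v⁻¹ := by
      calc u'⁻¹ * u = u'⁻¹ * (u * v) * v⁻¹ := by group
        _ = u'⁻¹ * (u' * v') * v⁻¹ := by rw [h1]
        _ = v' * v⁻¹ := by group
    have h3 : u'⁻¹ * u ∈ A ⊓ B := by
      refine ⟨A.mul_mem (A.inv_mem hu') hu, ?_⟩
      rw [h2]
      exact B.mul_mem hv' (B.inv_mem hv)
    rw [hd, Subgroup.mem_bot] at h3
    have hu1 : u = u' := by
      have := inv_mul_eq_one.mp h3
      exact this.symm
    have hv1 : v = v' := by
      rw [h3] at h2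
      have := mul_inv_eq_one.mp h2.symm
      exact this.symm
    subst hu1
    subst hv1
    rfl
  · rintro ⟨g, hg⟩
    obtain ⟨u, hu, v, hv, rfl⟩ := mem_sup_of_comm hc hg
    exact ⟨(⟨u, hu⟩, ⟨v, hv⟩), rfl⟩

theorem card_eq_relIndex_mul [Finite G] {L K : Subgroup G} (h : L ≤ K) :
    Nat.card K = L.relIndex K * Nat.card L := by
  have h1 := Subgroup.relIndex_mul_index h
  have h2 := Subgroup.card_mul_index L
  have h3 := Subgroup.card_mul_index K
  have hpos : 0 < K.index := Nat.pos_of_ne_zero Subgroup.index_ne_zero_of_finite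
  apply Nat.eq_of_mul_eq_mul_right hpos
  rw [h3, mul_assoc, mul_comm (Nat.card L), ← mul_assoc, h1, mul_comm, h2]

end gen

theorem pkgG1 : PkgG1.{u} := by
  intro G _ _ m n hyp s a hgood
  obtain ⟨hs, hsm, ⟨k, hk⟩, hixa⟩ := hgood
  have : Fact s.Prime := ⟨hs⟩
  have hcop : m.Coprime n := hyp.2.2.2.1
  have hsn : ¬ s ∣ n := by
    intro h
    have h1 : s ∣ Nat.gcd m n := Nat.dvd_gcd hsm h
    rw [hcop] at h1
    exact hs.one_lt.ne' (Nat.dvd_one.mp h1)
  have hs1 : ¬ s ∣ 1 := fun h => hs.one_lt.ne' (Nat.dvd_one.mp h)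
  -- the class sizes of `s'`-elements of `C(a)` are prime to `s`
  have hcls : ∀ y : ↥(Cn a), (orderOf y).Coprime s →
      ¬ s ∣ (ConjClasses.mk y).carrier.ncard := by
    intro y hy
    rw [Cfsg.Agent.Lib.Helper67.ncard_conjClasses_carrier]
    have hcent : Subgroup.centralizer ({y} : Set ↥(Cn a)) = (Cn (y : G)).subgroupOf (Cn a) := by
      ext z
      simp only [Subgroup.mem_centralizer_iff, Set.mem_singleton_iff, forall_eq,
        Subgroup.mem_subgroupOf]
      constructor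
      · intro h
        exact congrArg Subtype.val h
      · intro h
        exact Subtype.ext h
    rw [hcent]
    show ¬ s ∣ (Cn (y : G)).relIndex (Cn a)
    have hcomm : Commute a (y : G) := Subgroup.mem_centralizer_iff.mp y.2 a rfl
    have hord : (orderOf a).Coprime (orderOf (y : G)) := by
      rw [hk, Subgroup.orderOf_coe]
      exact Nat.Coprime.pow_left k hy.symm
    rcases Cfsg.Agent.Lib.Helper24.CS3.relIndex_of_coprime hyp a y hixa hcomm hord with h | h
    · rw [h]; exact hs1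
    · rw [h]; exact hsn
  obtain ⟨hPn, K, hKn, hsK, hPK, hPKtop⟩ :=
    Cfsg.Agent.S4035.result hcls (default : Sylow s ↥(Cn a))
  have hinj : Function.Injective (Cn a).subtype := Subgroup.subtype_injective _
  have hcardN : Nat.card (K.map (Cn a).subtype) = Nat.card K :=
    (Nat.card_congr (Subgroup.equivMapOfInjective K (Cn a).subtype hinj).toEquiv).symm
  have hcopN : (Nat.card (K.map (Cn a).subtype)).Coprime s := by
    rw [hcardN]
    exact ((Nat.Prime.coprime_iff_not_dvd hs).mpr hsK).symm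
  have hcomm : Comm (((default : Sylow s ↥(Cn a)) : Subgroup ↥(Cn a)).map (Cn a).subtype)
      (K.map (Cn a).subtype) := by
    rintro _ ⟨u, hu, rfl⟩ _ ⟨v, hv, rfl⟩
    have h := Subgroup.commute_of_normal_of_disjoint _ _ hPn hKn (disjoint_iff.mpr hPK) u v hu hv
    exact congrArg Subtype.val h
  have hsup : ((default : Sylow s ↥(Cn a)) : Subgroup ↥(Cn a)).map (Cn a).subtype ⊔
      K.map (Cn a).subtype = Cn a := by
    rw [← Subgroup.map_sup, hPKtop, ← MonoidHom.range_eq_map, Subgroup.range_subtype]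
  have hinf : ((default : Sylow s ↥(Cn a)) : Subgroup ↥(Cn a)).map (Cn a).subtype ⊓
      K.map (Cn a).subtype = ⊥ := by
    rw [← Subgroup.map_inf _ _ _ hinj, hPK, Subgroup.map_bot]
  refine ⟨((default : Sylow s ↥(Cn a)) : Subgroup ↥(Cn a)).map (Cn a).subtype,
    K.map (Cn a).subtype, hcomm, hsup, (default : Sylow s ↥(Cn a)).2.map _, hcopN, ?_⟩
  intro y hy
  -- abbreviations
  generalize hSa : ((default : Sylow s ↥(Cn a)) : Subgroup ↥(Cn a)).map (Cn a).subtype = Sa
    at hcomm hsup hinf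
  generalize hN : K.map (Cn a).subtype = N at hcomm hsup hinf hcopN hy ⊢
  have hNle : N ≤ Cn a := by rw [← hsup]; exact le_sup_right
  have hSale : Sa ≤ Cn a := by rw [← hsup]; exact le_sup_left
  have hya : Commute a y := Subgroup.mem_centralizer_iff.mp (hNle hy) a rfl
  have hordy : (orderOf a).Coprime (orderOf y) := by
    rw [hk]
    apply Nat.Coprime.pow_left
    have h1 : orderOf y ∣ Nat.card N := by
      have := orderOf_dvd_natCard (⟨y, hy⟩ : N)
      rwa [Subgroup.orderOf_mk] at this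
    exact (Nat.Coprime.coprime_dvd_left h1 hcopN).symm
  have hSaC : Sa ≤ Cn y := by
    intro u hu
    rw [Subgroup.mem_centralizer_iff]
    intro g hg
    rw [Set.mem_singleton_iff] at hg
    rw [hg]
    exact (hcomm u hu y hy).symm
  have heq : Cn y ⊓ Cn a = Sa ⊔ (Cn y ⊓ N) := by
    apply le_antisymm
    · intro g hg
      have hg' : g ∈ Sa ⊔ N := by rw [hsup]; exact hg.2
      obtain ⟨u, hu, v, hv, rfl⟩ := mem_sup_of_comm hcomm hg'
      have hvC : v ∈ Cn y := by
        have h1 : v = u⁻¹ * (u * v) := by group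
        rw [h1]
        exact (Cn y).mul_mem ((Cn y).inv_mem (hSaC hu)) hg.1
      exact Subgroup.mul_mem _ ((le_sup_left : Sa ≤ Sa ⊔ (Cn y ⊓ N)) hu)
        ((le_sup_right : Cn y ⊓ N ≤ Sa ⊔ (Cn y ⊓ N)) ⟨hvC, hv⟩)
    · exact sup_le (le_inf hSaC hSale) (le_inf inf_le_left (inf_le_right.trans hNle))
  have hcomm' : Comm Sa (Cn y ⊓ N) := fun u hu v hv => hcomm u hu v hv.2
  have hinf' : Sa ⊓ (Cn y ⊓ N) = ⊥ := by
    apply le_antisymm _ bot_le
    rw [← hinf]
    exact le_inf inf_le_left (inf_le_right.trans inf_le_right)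
  have hc1 : Nat.card (Cn a) = Nat.card Sa * Nat.card N := by
    rw [← hsup]
    exact card_sup_of_comm hcomm hinf
  have hc2 : Nat.card (Cn y ⊓ Cn a : Subgroup G) =
      Nat.card Sa * Nat.card (Cn y ⊓ N : Subgroup G) := by
    rw [heq]
    exact card_sup_of_comm hcomm' hinf'
  have hc3 := card_eq_relIndex_mul (inf_le_right : Cn y ⊓ Cn a ≤ Cn a)
  rw [Subgroup.inf_relIndex_right, hc1, hc2] at hc3
  have hSapos : 0 < Nat.card Sa := Nat.card_pos
  rcases Cfsg.Agent.Lib.Helper24.CS3.relIndex_of_coprime hyp a y hixa hya hordy with h | h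
  · left
    rw [h, one_mul] at hc3
    exact Nat.eq_of_mul_eq_mul_left hSapos hc3
  · right
    rw [h] at hc3
    apply Nat.eq_of_mul_eq_mul_left hSapos
    rw [hc3]
    ring

end Cfsg.Agent.Lib.Helper38.CS3
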